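import Cfsg.Agent.Lib.TC.Data.Fi22S0.Main
import Cfsg.Agent.Lib.TC.Data.Fi22S1.Main
import Cfsg.Agent.Lib.TC.Data.Fi22S2.Main
import Cfsg.Agent.Lib.TC.Data.Fi22S3.Main
import Cfsg.Agent.Lib.TC.Data.Fi22S4.Main
import Cfsg.Agent.Lib.TC.Data.Fi22S5.Main
import Cfsg.Agent.Lib.TC.Data.Fi22S6.Main
import Cfsg.Agent.Lib.TC.Data.Fi22S7.Main
import Cfsg.Agent.Lib.TC.Data.Fi22Coll
import Cfsg.Agent.Lib.TC.Data.Fi22Lev
import Cfsg.Agent.Lib.TC.Data.Fi22b.Main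

set_option autoImplicit false

namespace Cfsg.Agent.Lib.TC.Data.Fi22Main

open Cfsg.Agent.Lib.TC

noncomputable abbrev S : Sys Cfsg.Spor.Fi22.Gen := G.Fi22.sys

noncomputable abbrev C := Cfsg.Agent.Lib.TC.Data.Fi22a.checked

theorem b0 : 0 < Nat.card (S.letL [7]) ∧ Nat.card (S.letL [7]) ≤ 1 * 2 :=
  card_le_step (S.letL_mono (by simp)) Cfsg.Agent.Lib.TC.Data.Fi22S7.idx (by rw [S.letL_nil]; exact card_bot_bound)

theorem b1 : 0 < Nat.card (S.letL [3,7]) ∧ Nat.card (S.letL [3,7]) ≤ 1 * 2 * 3 :=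
  card_le_step (S.letL_mono (by decide +kernel)) Cfsg.Agent.Lib.TC.Data.Fi22S6.idx b0

theorem b2 : 0 < Nat.card (S.letL [3,4,7]) ∧ Nat.card (S.letL [3,4,7]) ≤ 1 * 2 * 3 * 4 :=
  card_le_step (S.letL_mono (by decide +kernel)) Cfsg.Agent.Lib.TC.Data.Fi22S5.idx b1

theorem b3 : 0 < Nat.card (S.letL [2,3,4,7]) ∧ Nat.card (S.letL [2,3,4,7]) ≤ 1 * 2 * 3 * 4 * 8 :=
  card_le_step (S.letL_mono (by decide +kernel)) Cfsg.Agent.Lib.TC.Data.Fi22S4.idx b2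

theorem b4 : 0 < Nat.card (S.letL [2,3,4,7,8]) ∧ Nat.card (S.letL [2,3,4,7,8]) ≤ 1 * 2 * 3 * 4 * 8 * 10 :=
  card_le_step (S.letL_mono (by decide +kernel)) Cfsg.Agent.Lib.TC.Data.Fi22S3.idx b3

theorem b5 : 0 < Nat.card (S.letL [1,2,3,4,7,8]) ∧ Nat.card (S.letL [1,2,3,4,7,8]) ≤ 1 * 2 * 3 * 4 * 8 * 10 * 27 :=
  card_le_step (S.letL_mono (by decide +kernel)) Cfsg.Agent.Lib.TC.Data.Fi22S2.idx b4

theorem b6 : 0 < Nat.card (S.letL [1,2,3,4,5,7,8]) ∧ Nat.card (S.letL [1,2,3,4,5,7,8]) ≤ 1 * 2 * 3 * 4 * 8 * 10 * 27 * 243 :=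
  card_le_step (S.letL_mono (by decide +kernel)) Cfsg.Agent.Lib.TC.Data.Fi22S1.idx b5

theorem b7 : 0 < Nat.card (S.letL [1,2,3,4,5,6,7,8]) ∧ Nat.card (S.letL [1,2,3,4,5,6,7,8]) ≤ 1 * 2 * 3 * 4 * 8 * 10 * 27 * 243 * 364 :=
  card_le_step (S.letL_mono (by decide +kernel)) Cfsg.Agent.Lib.TC.Data.Fi22S0.idx b6

open Cfsg.Spor.Fi22 in
theorem hsubL : Sys.subOf S ({b, c, d, e, f, g, h, i} : Set (FreeGroup Cfsg.Spor.Fi22.Gen)) = S.letL [1,2,3,4,5,6,7,8] :=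
  S.subOf_eq_letL Cfsg.Agent.Lib.TC.Data.Fi22b.checked.A _ (by decide +kernel) (by decide +kernel)

theorem top : 0 < Nat.card (PresentedGroup S.rels) ∧ Nat.card (PresentedGroup S.rels) ≤ 1 * 2 * 3 * 4 * 8 * 10 * 27 * 243 * 364 * 14080 :=
  card_top_le (by rw [← hsubL]; exact Cfsg.Agent.Lib.TC.Data.Fi22b.checked.upper) b7

theorem faith : Function.Injective C.tableData.φ ∧ Nat.card (PresentedGroup S.rels) = 18393661440 * C.n :=
  C.faithful top.1 (top.2.trans (by decide +kernel)) Cfsg.Agent.Lib.TC.Data.Fi22Lev.SW Cfsg.Agent.Lib.TC.Data.Fi22Lev.hlet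
    (by decide +kernel) Cfsg.Agent.Lib.TC.Data.Fi22Lev.L0

def xw : List ℕ := Cfsg.Agent.Lib.TC.Data.Fi22Coll.xw

theorem hord : allFrom (fun i => Nat.beq (iterN (walk C.T xw) 13 i) i) 0 3510 = true := by
  decide +kernel

theorem hx : (evalWord S.v xw) ^ 13 ^ 1 = 1 := by
  rw [pow_one]
  refine C.tableData.pow_eq_one faith.1 (by decide +kernel) 13 ?_
  intro i hi
  have h := allFrom_spec _ 0 3510 hord i hi
  rw [Nat.zero_add] at h
  rw [← iterN_eq]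
  exact Nat.eq_of_beq_eq_true h

theorem main : IsSimpleGroup (PresentedGroup S.rels) ∧ Nat.card (PresentedGroup S.rels) = 64561751654400 := by
  have hcard : Nat.card (PresentedGroup S.rels) = 64561751654400 := faith.2.trans (by decide +kernel)
  have : Finite (PresentedGroup S.rels) := Nat.finite_of_card_ne_zero (by omega)
  refine ⟨?_, hcard⟩
  refine C.isSimple faith.1 hcard (by decide +kernel) (by decide +kernel) (by decide +kernel) (by decide +kernel)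
    (p := 13) (a := 1) (k := 1) (by norm_num) (by decide +kernel) (by decide +kernel) _ hx ?_
  intro N hN hxN
  have h := Cfsg.Agent.Lib.TC.Data.Fi22Coll.coll N hxN
  exact Subgroup.index_eq_one.1 (by omega)

end Cfsg.Agent.Lib.TC.Data.Fi22Main
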