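import Cfsg.Agent.Lib.TC.Data.Fi23S0.Main
import Cfsg.Agent.Lib.TC.Data.Fi23S1.Main
import Cfsg.Agent.Lib.TC.Data.Fi23S2.Main
import Cfsg.Agent.Lib.TC.Data.Fi23S3.Main
import Cfsg.Agent.Lib.TC.Data.Fi23S4.Main
import Cfsg.Agent.Lib.TC.Data.Fi23S5.Main
import Cfsg.Agent.Lib.TC.Data.Fi23S6.Main
import Cfsg.Agent.Lib.TC.Data.Fi23S7.Main
import Cfsg.Agent.Lib.TC.Data.Fi23S8.Main
import Cfsg.Agent.Lib.TC.Data.Fi23Coll
import Cfsg.Agent.Lib.TC.Data.Fi23Lev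
import Cfsg.Agent.Lib.TC.Data.Fi23Ord.Main
import Cfsg.Agent.Lib.TC.Data.Fi23a.Main

set_option autoImplicit false

namespace Cfsg.Agent.Lib.TC.Data.Fi23Main

open Cfsg.Agent.Lib.TC

noncomputable abbrev S : Sys Cfsg.Spor.Fi23.Gen := G.Fi23.sys

noncomputable abbrev C := Cfsg.Agent.Lib.TC.Data.Fi23a.checked

theorem b0 : 0 < Nat.card (S.letL [8]) ∧ Nat.card (S.letL [8]) ≤ 1 * 2 :=
  card_le_step (S.letL_mono (by simp)) Cfsg.Agent.Lib.TC.Data.Fi23S8.idx (by rw [S.letL_nil]; exact card_bot_bound)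

theorem b1 : 0 < Nat.card (S.letL [3,8]) ∧ Nat.card (S.letL [3,8]) ≤ 1 * 2 * 3 :=
  card_le_step (S.letL_mono (by decide +kernel)) Cfsg.Agent.Lib.TC.Data.Fi23S7.idx b0

theorem b2 : 0 < Nat.card (S.letL [3,4,8]) ∧ Nat.card (S.letL [3,4,8]) ≤ 1 * 2 * 3 * 4 :=
  card_le_step (S.letL_mono (by decide +kernel)) Cfsg.Agent.Lib.TC.Data.Fi23S6.idx b1

theorem b3 : 0 < Nat.card (S.letL [2,3,4,8]) ∧ Nat.card (S.letL [2,3,4,8]) ≤ 1 * 2 * 3 * 4 * 8 :=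
  card_le_step (S.letL_mono (by decide +kernel)) Cfsg.Agent.Lib.TC.Data.Fi23S5.idx b2

theorem b4 : 0 < Nat.card (S.letL [2,3,4,8,9]) ∧ Nat.card (S.letL [2,3,4,8,9]) ≤ 1 * 2 * 3 * 4 * 8 * 10 :=
  card_le_step (S.letL_mono (by decide +kernel)) Cfsg.Agent.Lib.TC.Data.Fi23S4.idx b3

theorem b5 : 0 < Nat.card (S.letL [1,2,3,4,8,9]) ∧ Nat.card (S.letL [1,2,3,4,8,9]) ≤ 1 * 2 * 3 * 4 * 8 * 10 * 27 :=
  card_le_step (S.letL_mono (by decide +kernel)) Cfsg.Agent.Lib.TC.Data.Fi23S3.idx b4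

theorem b6 : 0 < Nat.card (S.letL [1,2,3,4,5,8,9]) ∧ Nat.card (S.letL [1,2,3,4,5,8,9]) ≤ 1 * 2 * 3 * 4 * 8 * 10 * 27 * 243 :=
  card_le_step (S.letL_mono (by decide +kernel)) Cfsg.Agent.Lib.TC.Data.Fi23S2.idx b5

theorem b7 : 0 < Nat.card (S.letL [1,2,3,4,5,6,8,9]) ∧ Nat.card (S.letL [1,2,3,4,5,6,8,9]) ≤ 1 * 2 * 3 * 4 * 8 * 10 * 27 * 243 * 728 :=
  card_le_step (S.letL_mono (by decide +kernel)) Cfsg.Agent.Lib.TC.Data.Fi23S1.idx b6

theorem b8 : 0 < Nat.card (S.letL [0,1,2,3,4,5,6,8,9]) ∧ Nat.card (S.letL [0,1,2,3,4,5,6,8,9]) ≤ 1 * 2 * 3 * 4 * 8 * 10 * 27 * 243 * 728 * 14080 :=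
  card_le_step (S.letL_mono (by decide +kernel)) Cfsg.Agent.Lib.TC.Data.Fi23S0.idx b7

open Cfsg.Spor.Fi23 in
theorem hsubL : Sys.subOf S ({a, b, c, d, e, f, g, h, i} : Set (FreeGroup Cfsg.Spor.Fi23.Gen)) = S.letL [0,1,2,3,4,5,6,8,9] :=
  S.subOf_eq_letL Cfsg.Agent.Lib.TC.Data.Fi23a.checked.A _ (by decide +kernel) (by decide +kernel)

theorem top : 0 < Nat.card (PresentedGroup S.rels) ∧ Nat.card (PresentedGroup S.rels) ≤ 1 * 2 * 3 * 4 * 8 * 10 * 27 * 243 * 728 * 14080 * 31671 :=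
  card_top_le (by rw [← hsubL]; exact Cfsg.Agent.Lib.TC.Data.Fi23a.checked.upper) b8

theorem relsOk_of_all {T : ℕ → ℕ → ℕ} {i : ℕ} : ∀ {R : List (List ℕ)}, (∀ w ∈ R, walk T w i = i) →
    relsOk T R i = true := by
  intro R
  induction R with
  | nil => intro _; rfl
  | cons a R ih =>
    intro h
    have h1 := h a (by simp)
    have h2 := ih (fun w hw => h w (by simp [hw]))
    show (Bool.rec false (relsOk T R i) (Nat.beq (walk T a i) i) : Bool) = true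
    rw [h2, h1]
    simp

theorem faith : Function.Injective C.tableData.φ ∧ Nat.card (PresentedGroup S.rels) = 129123503308800 * C.n :=
  C.faithful top.1 (top.2.trans (by decide +kernel)) Cfsg.Agent.Lib.TC.Data.Fi23Lev.SW Cfsg.Agent.Lib.TC.Data.Fi23Lev.hlet
    (relsOk_of_all Cfsg.Agent.Lib.TC.Data.Fi23Lev.fixAll) Cfsg.Agent.Lib.TC.Data.Fi23Lev.L0

def xw : List ℕ := Cfsg.Agent.Lib.TC.Data.Fi23Coll.xw

theorem hx : (evalWord S.v xw) ^ 17 ^ 1 = 1 := by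
  rw [pow_one]
  refine C.tableData.pow_eq_one_U faith.1 (by decide +kernel) 17 Cfsg.Agent.Lib.TC.Data.Fi23Ord.aU ?_ ?_
  · intro i hi
    exact (Sys.ptPow_spec (Cfsg.Agent.Lib.TC.Data.Fi23Ord.doneU i hi)).1
  · intro i hi
    exact (Sys.ptPow_spec (Cfsg.Agent.Lib.TC.Data.Fi23Ord.doneU i hi)).2

theorem main : IsSimpleGroup (PresentedGroup S.rels) ∧ Nat.card (PresentedGroup S.rels) = 4089470473293004800 := by
  have hcard : Nat.card (PresentedGroup S.rels) = 4089470473293004800 := faith.2.trans (by decide +kernel)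
  have : Finite (PresentedGroup S.rels) := Nat.finite_of_card_ne_zero (by omega)
  refine ⟨?_, hcard⟩
  refine C.isSimple faith.1 hcard (by decide +kernel) (by decide +kernel) (by decide +kernel) (by decide +kernel)
    (p := 17) (a := 1) (k := 1) (by norm_num) (by decide +kernel) (by decide +kernel) _ hx ?_
  intro N hN hxN
  have h := Cfsg.Agent.Lib.TC.Data.Fi23Coll.coll N hxN
  exact Subgroup.index_eq_one.1 (by omega)

end Cfsg.Agent.Lib.TC.Data.Fi23Main
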