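/-
The subgroup of Fi23 generated by a, …, i is a non-split double cover of Fi22.
-/
import Cfsg.Agent.Lib.TC.Inter
import Cfsg.Agent.Lib.TC.Data.Fi23Emb
import Cfsg.Agent.Lib.TC.Data.Fi23Main
import Cfsg.Agent.Lib.TC.Data.Fi22Main

set_option autoImplicit false

namespace Cfsg.Agent.Lib.TC.Data.Fi23Cover

open Cfsg.Agent.Lib.TC Cfsg.Spor

noncomputable abbrev S : Sys Fi23.Gen := G.Fi23.sys
noncomputable abbrev S' : Sys Fi22.Gen := G.Fi22.sys
noncomputable abbrev C := Cfsg.Agent.Lib.TC.Data.Fi23a.checked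
noncomputable abbrev C' := Cfsg.Agent.Lib.TC.Data.Fi22a.checked

abbrev L : List ℕ := [0,1,2,3,4,5,6,8,9]
abbrev J : Set ℕ := {j | j < L.length}

noncomputable def x (j : ℕ) : PresentedGroup S.rels := S.v (L.getD j 0)
noncomputable def z (j : ℕ) : PresentedGroup S'.rels := S'.v j

noncomputable def e (y : Fin C'.tableData.n) : Fin C.tableData.n :=
  ⟨Fi23Emb.eF y.1, (Fi23Emb.eF_spec y.2).1⟩

theorem he : Function.Injective e := by
  intro a b h
  have h1 := congrArg Fin.val h
  have h2 : Fi23Emb.eF a.1 = Fi23Emb.eF b.1 := h1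
  have h3 := (Fi23Emb.eF_spec a.2).2.1
  have h4 := (Fi23Emb.eF_spec b.2).2.1
  apply Fin.ext
  rw [← h3, ← h4, h2]

theorem hL_lt : ∀ j, j < 9 → L.getD j 0 < S.ng := by decide +kernel

theorem hf : ∀ j ∈ J, ∀ y, C.tableData.φ (x j) (e y) = e (C'.tableData.φ (z j) y) := by
  intro j hj y
  have hj' : j < 9 := hj
  apply Fin.ext
  have hg : L.getD j 0 < S.ng := hL_lt j hj'
  have hg' : j < S'.ng := hj'
  rw [x, z, C.tableData.φ_v hg, C'.tableData.φ_v hg']
  refine ((C.tableData.tbl.perm_val hg (e y)).trans ?_).trans (congrArg Fi23Emb.eF (C'.tableData.tbl.perm_val hg' y)).symm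
  exact (Fi23Emb.eF_spec y.2).2.2 j hj'

theorem exists_ψ : ∃ ψ : Subgroup.closure (x '' J) →* PresentedGroup S'.rels,
    ∀ j (hj : j ∈ J), ψ ⟨x j, Subgroup.subset_closure ⟨j, hj, rfl⟩⟩ = z j :=
  exists_hom_of_intertwine C.tableData.φ C'.tableData.φ Fi22Main.faith.1 e he J x z hf

theorem hH : S.letL L = Subgroup.closure (x '' J) := rfl

theorem card_H : Nat.card (Subgroup.closure (x '' J)) = 129123503308800 := by
  have h1 := Subgroup.card_mul_index (Sys.subOf S ({Fi23.a, Fi23.b, Fi23.c, Fi23.d, Fi23.e, Fi23.f, Fi23.g, Fi23.h, Fi23.i} : Set (FreeGroup Fi23.Gen)))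
  rw [Fi23Main.hsubL, hH] at h1
  have h2 := C.index_eq
  rw [Fi23Main.hsubL, hH] at h2
  rw [h2, Fi23Main.faith.2] at h1
  exact Nat.eq_of_mul_eq_mul_right C.hn h1

theorem cox3 (p q : Fi23.Gen) (hp : p ∈ coxNodes Fi23.edges) (hq : q ∈ coxNodes Fi23.edges)
    (hl : coxLabel Fi23.edges p q = 3) : (S.v (S.code p) * S.v (S.code q)) ^ 3 = 1 := by
  have h : (FreeGroup.of p * FreeGroup.of q) ^ 3 ∈ S.rels := by
    refine Or.inl ⟨p, hp, q, hq, ?_⟩
    rw [hl]
  have h1 := PresentedGroup.one_of_mem h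
  rw [map_pow, map_mul] at h1
  rw [S.v_code, S.v_code]
  exact h1

noncomputable def ax (j : ℕ) : Subgroup.closure (x '' J) :=
  if h : j ∈ J then ⟨x j, Subgroup.subset_closure ⟨j, h, rfl⟩⟩ else 1

theorem ax_coe {j : ℕ} (h : j ∈ J) : ((ax j : Subgroup.closure (x '' J)) : PresentedGroup S.rels) = x j := by
  simp [ax, h]

theorem ax_gen : Subgroup.closure (ax '' {j | j < 9}) = ⊤ := by
  have : ax '' {j | j < 9} = ((↑) : Subgroup.closure (x '' J) → PresentedGroup S.rels) ⁻¹' (x '' J) := by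
    ext y
    constructor
    · rintro ⟨j, hj, rfl⟩
      exact ⟨j, hj, (ax_coe hj).symm⟩
    · rintro ⟨j, hj, h⟩
      exact ⟨j, hj, Subtype.ext (by rw [ax_coe hj]; exact h)⟩
  rw [this]
  exact Subgroup.closure_closure_coe_preimage

theorem cube (i j : ℕ) (hi : i ∈ J) (hj : j ∈ J) (p q : Fi23.Gen) (hp : S.code p = L.getD i 0) (hq : S.code q = L.getD j 0)
    (h1 : p ∈ coxNodes Fi23.edges) (h2 : q ∈ coxNodes Fi23.edges) (hl : coxLabel Fi23.edges p q = 3) :
    (ax i * ax j) ^ 3 = 1 := by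
  apply Subtype.ext
  rw [Subgroup.coe_pow, Subgroup.coe_mul, ax_coe hi, ax_coe hj, x, x, ← hp, ← hq]
  exact cox3 p q h1 h2 hl

theorem hj {j : ℕ} (h : j < 9) : j ∈ J := h

theorem noIdx2 (L0 : Subgroup (Subgroup.closure (x '' J))) (hL : L0.index = 2) : False := by
  have c01 := mem_iff_of_cube hL (cube 0 1 (hj (by norm_num)) (hj (by norm_num)) .a .b rfl rfl (by decide) (by decide) (by decide))
  have c12 := mem_iff_of_cube hL (cube 1 2 (hj (by norm_num)) (hj (by norm_num)) .b .c rfl rfl (by decide) (by decide) (by decide))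
  have c23 := mem_iff_of_cube hL (cube 2 3 (hj (by norm_num)) (hj (by norm_num)) .c .d rfl rfl (by decide) (by decide) (by decide))
  have c34 := mem_iff_of_cube hL (cube 3 4 (hj (by norm_num)) (hj (by norm_num)) .d .e rfl rfl (by decide) (by decide) (by decide))
  have c45 := mem_iff_of_cube hL (cube 4 5 (hj (by norm_num)) (hj (by norm_num)) .e .f rfl rfl (by decide) (by decide) (by decide))
  have c56 := mem_iff_of_cube hL (cube 5 6 (hj (by norm_num)) (hj (by norm_num)) .f .g rfl rfl (by decide) (by decide) (by decide))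
  have c37 := mem_iff_of_cube hL (cube 3 7 (hj (by norm_num)) (hj (by norm_num)) .d .h rfl rfl (by decide) (by decide) (by decide))
  have c78 := mem_iff_of_cube hL (cube 7 8 (hj (by norm_num)) (hj (by norm_num)) .h .i rfl rfl (by decide) (by decide) (by decide))
  have hrel : (Fi23.a * Fi23.b * Fi23.c * Fi23.d * Fi23.e * Fi23.f * Fi23.h) ^ 9 ∈ S.rels :=
    Or.inr (by simp [Fi23.extra])
  have h9 := PresentedGroup.one_of_mem hrel
  refine no_index_two L0 hL 9 ax ax_gen ?_ [0,1,2,3,4,5,7] (by decide) (by decide) 4 ?_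
  · intro j hj'
    interval_cases j
    · exact Iff.rfl
    · exact c01.symm
    · exact c12.symm.trans c01.symm
    · exact c23.symm.trans (c12.symm.trans c01.symm)
    · exact c34.symm.trans (c23.symm.trans (c12.symm.trans c01.symm))
    · exact c45.symm.trans (c34.symm.trans (c23.symm.trans (c12.symm.trans c01.symm)))
    · exact c56.symm.trans (c45.symm.trans (c34.symm.trans (c23.symm.trans (c12.symm.trans c01.symm))))
    · exact c37.symm.trans (c23.symm.trans (c12.symm.trans c01.symm))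
    · exact c78.symm.trans (c37.symm.trans (c23.symm.trans (c12.symm.trans c01.symm)))
  · apply Subtype.ext
    have e0 : ((ax 0 : Subgroup.closure (x '' J)) : PresentedGroup S.rels) = PresentedGroup.of Fi23.Gen.a := (ax_coe (hj (by norm_num))).trans (S.v_code .a)
    have e1 : ((ax 1 : Subgroup.closure (x '' J)) : PresentedGroup S.rels) = PresentedGroup.of Fi23.Gen.b := (ax_coe (hj (by norm_num))).trans (S.v_code .b)
    have e2 : ((ax 2 : Subgroup.closure (x '' J)) : PresentedGroup S.rels) = PresentedGroup.of Fi23.Gen.c := (ax_coe (hj (by norm_num))).trans (S.v_code .c)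
    have e3 : ((ax 3 : Subgroup.closure (x '' J)) : PresentedGroup S.rels) = PresentedGroup.of Fi23.Gen.d := (ax_coe (hj (by norm_num))).trans (S.v_code .d)
    have e4 : ((ax 4 : Subgroup.closure (x '' J)) : PresentedGroup S.rels) = PresentedGroup.of Fi23.Gen.e := (ax_coe (hj (by norm_num))).trans (S.v_code .e)
    have e5 : ((ax 5 : Subgroup.closure (x '' J)) : PresentedGroup S.rels) = PresentedGroup.of Fi23.Gen.f := (ax_coe (hj (by norm_num))).trans (S.v_code .f)
    have e7 : ((ax 7 : Subgroup.closure (x '' J)) : PresentedGroup S.rels) = PresentedGroup.of Fi23.Gen.h := (ax_coe (hj (by norm_num))).trans (S.v_code .h)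
    simp only [evalWord_cons, evalWord_nil, mul_one, Subgroup.coe_pow, Subgroup.coe_mul, e0, e1, e2, e3, e4, e5, e7]
    simp only [map_pow, map_mul] at h9
    simp only [mul_assoc] at h9
    exact h9

theorem simple' : IsSimpleGroup (PresentedGroup S'.rels) := Fi22Main.main.1

theorem main : Cfsg.IsNonsplitDoubleCover (Sys.subOf S ({Fi23.a, Fi23.b, Fi23.c, Fi23.d, Fi23.e, Fi23.f, Fi23.g, Fi23.h, Fi23.i} : Set (FreeGroup Fi23.Gen))) (PresentedGroup S'.rels) := by
  rw [Fi23Main.hsubL, hH]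
  obtain ⟨ψ, hψ⟩ := exists_ψ
  have hcardK : Nat.card (PresentedGroup S'.rels) = 64561751654400 := Fi22Main.main.2
  have hfin : Finite (Subgroup.closure (x '' J)) := Nat.finite_of_card_ne_zero (by rw [card_H]; norm_num)
  have hfinK : Finite (PresentedGroup S'.rels) := Nat.finite_of_card_ne_zero (by rw [hcardK]; norm_num)
  have hs : Function.Surjective ψ := by
    rw [← MonoidHom.range_eq_top, eq_top_iff, ← S'.closure_eq_top]
    apply (Subgroup.closure_le _).2
    rintro _ ⟨a, rfl⟩
    have h1 : S'.code a < 9 := S'.hcode a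
    exact ⟨_, hψ (S'.code a) h1⟩
  have := simple'
  refine isNonsplitDoubleCover_of_hom ψ hs (by rw [card_H, hcardK]) (by rw [hcardK]; norm_num) ?_ noIdx2
  apply center_eq_bot_of_simple
  rw [hcardK]
  norm_num

end Cfsg.Agent.Lib.TC.Data.Fi23Cover
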